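import Mathlib

/-!
The Baer sum on a group of odd order and class at most two, and the involutory automorphism
attached to a coprime operator group whose fixed points are central and contain the commutators.
-/

set_option autoImplicit false
set_option linter.style.haveILetI false

namespace H88

open scoped commutatorElement IsMulCommutative

section baer

variable {K : Type*} [Group K] (hc : ∀ x y : K, ⁅x, y⁆ ∈ Subgroup.center K)

/-- the commutator as a central element -/
def ccom (x y : K) : Subgroup.center K := ⟨⁅x, y⁆, hc x y⟩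

theorem center_mul_comm (w : Subgroup.center K) (x : K) : (w : K) * x = x * w :=
  (Subgroup.mem_center_iff.1 w.2 x).symm

theorem ccom_mul_left (x y z : K) : ccom hc (x * y) z = ccom hc x z * ccom hc y z := by
  apply Subtype.ext
  change ⁅x * y, z⁆ = ⁅x, z⁆ * ⁅y, z⁆
  rw [commutatorElement_mul_left_eq_conj_mul, Subgroup.mem_center_iff.1 (hc y z) x,
    mul_inv_cancel_right, Subgroup.mem_center_iff.1 (hc x z)]

theorem ccom_inv (x y : K) : ccom hc y x = (ccom hc x y)⁻¹ :=
  Subtype.ext (commutatorElement_inv x y).symm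

theorem ccom_mul_right (x y z : K) : ccom hc x (y * z) = ccom hc x y * ccom hc x z := by
  rw [ccom_inv, ccom_mul_left, mul_inv, ← ccom_inv, ← ccom_inv]

theorem ccom_center_left (w : Subgroup.center K) (x : K) : ccom hc w x = 1 :=
  Subtype.ext (commutatorElement_eq_one_iff_mul_comm.2 (center_mul_comm w x))

theorem ccom_center_right (w : Subgroup.center K) (x : K) : ccom hc x w = 1 := by
  rw [ccom_inv, ccom_center_left, inv_one]

theorem mul_eq_ccom (x y : K) : x * y = y * x * ccom hc x y := by
  rw [← center_mul_comm]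
  simp [ccom, commutatorElement_def]

theorem ccom_self (x : K) : ccom hc x x = 1 := Subtype.ext (commutatorElement_self x)

theorem ccom_inv_left (x y : K) : ccom hc x⁻¹ y = (ccom hc x y)⁻¹ := by
  rw [eq_inv_iff_mul_eq_one, ← ccom_mul_left, inv_mul_cancel]
  exact ccom_center_left hc 1 y

theorem ccom_inv_right (x y : K) : ccom hc x y⁻¹ = (ccom hc x y)⁻¹ := by
  rw [ccom_inv, ccom_inv_left, inv_inv, ccom_inv]

/-- the Baer sum -/
def bmul (h : ℕ) (x y : K) : K := x * y * (ccom hc y x ^ h : Subgroup.center K)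

theorem bmul_center_right (h : ℕ) (x : K) (w : Subgroup.center K) : bmul hc h x w = x * w := by
  simp [bmul, ccom_center_left]

theorem bmul_center_left (h : ℕ) (x : K) (w : Subgroup.center K) : bmul hc h w x = w * x := by
  simp [bmul, ccom_center_right]

/-- the Baer sum as a commutative monoid -/
@[reducible] def baer (h : ℕ) (hh : ∀ x : K, x ^ (2 * h) = x) : CommMonoid K where
  mul := bmul hc h
  one := 1
  npow n x := x ^ n
  npow_zero x := pow_zero x
  npow_succ n x := by
    change x ^ (n + 1) = bmul hc h (x ^ n) x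
    have : ccom hc x (x ^ n) = 1 :=
      Subtype.ext (Commute.commutator_eq (Commute.self_pow x n))
    rw [bmul, this, one_pow, OneMemClass.coe_one, mul_one, pow_succ]
  one_mul x := (bmul_center_left hc h x 1).trans (one_mul x)
  mul_one x := (bmul_center_right hc h x 1).trans (mul_one x)
  mul_assoc x y z := by
    change bmul hc h (bmul hc h x y) z = bmul hc h x (bmul hc h y z)
    simp only [bmul, ccom_mul_left, ccom_mul_right, ccom_center_left, ccom_center_right, mul_one]
    rw [mul_assoc (x * y), center_mul_comm, ← mul_assoc (x * y), mul_assoc (x * y * z),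
      ← Subgroup.coe_mul, ← mul_assoc x, ← mul_assoc x, mul_assoc (x * y * z), ← Subgroup.coe_mul]
    congr 2
    simp only [mul_pow]
    simp only [mul_comm, mul_left_comm, mul_assoc]
  mul_comm x y := by
    change bmul hc h x y = bmul hc h y x
    simp only [bmul]
    rw [mul_eq_ccom hc x y, mul_assoc, ← Subgroup.coe_mul, ccom_inv hc x y]
    congr 2
    have : ccom hc x y ^ (2 * h) = ccom hc x y := Subtype.ext (hh _)
    rw [inv_pow, mul_inv_eq_iff_eq_mul, ← pow_add, ← two_mul, this]

theorem map_bmul (h : ℕ) (α : K →* K) (x y : K) :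
    α (bmul hc h x y) = bmul hc h (α x) (α y) := by
  simp [bmul, ccom, map_commutatorElement]

variable {A : Type*} [Group A] [Fintype A] [MulDistribMulAction A K]

/-- the norm map in the Baer sum, over a set of operators -/
def bnorm (h : ℕ) (hh : ∀ x : K, x ^ (2 * h) = x) (s : Finset A) (x : K) : K :=
  @Finset.prod A K (baer hc h hh) s (fun a => a • x)

variable {h : ℕ} (hh : ∀ x : K, x ^ (2 * h) = x)

omit [Fintype A] in
theorem bnorm_empty (x : K) : bnorm hc h hh (∅ : Finset A) x = 1 := rfl

omit [Fintype A] in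
theorem bnorm_insert [DecidableEq A] {s : Finset A} {a : A} (ha : a ∉ s) (x : K) :
    bnorm hc h hh (insert a s) x = bmul hc h (a • x) (bnorm hc h hh s x) :=
  @Finset.prod_insert A K s a (baer hc h hh) _ _ ha

omit [Fintype A] in
theorem bnorm_bmul (s : Finset A) (x y : K) :
    bnorm hc h hh s (bmul hc h x y) = bmul hc h (bnorm hc h hh s x) (bnorm hc h hh s y) := by
  refine Eq.trans ?_ (@Finset.prod_mul_distrib A K s (baer hc h hh) (fun a => a • x)
    (fun a => a • y))
  exact @Finset.prod_congr A K s s (baer hc h hh) _ _ rfl fun a _ =>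
    map_bmul hc h (MulDistribMulAction.toMonoidHom K a) x y

omit [Fintype A] in
theorem map_bnorm (α : K →* K) (s : Finset A) (x y : K) (hα : ∀ a : A, α (a • x) = a • y) :
    α (bnorm hc h hh s x) = bnorm hc h hh s y := by
  classical
  induction s using Finset.induction_on with
  | empty => simp [bnorm_empty]
  | insert a s ha ih => rw [bnorm_insert hc hh ha, bnorm_insert hc hh ha, map_bmul, ih, hα]

theorem bnorm_smul (a : A) (x : K) :
    bnorm hc h hh (Finset.univ : Finset A) (a • x) = bnorm hc h hh (Finset.univ : Finset A) x :=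
  @Fintype.prod_equiv A A K _ _ (baer hc h hh) (Equiv.mulRight a) _ _ fun b =>
    (mul_smul b a x).symm

theorem smul_bnorm (a : A) (x : K) :
    a • bnorm hc h hh (Finset.univ : Finset A) x = bnorm hc h hh (Finset.univ : Finset A) x := by
  have h1 : ∀ s : Finset A, a • bnorm hc h hh s x =
      @Finset.prod A K (baer hc h hh) s (fun b => (a * b) • x) := by
    classical
    intro s
    induction s using Finset.induction_on with
    | empty => exact smul_one a
    | insert b s hb ih =>
      rw [bnorm_insert hc hh hb]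
      refine Eq.trans ?_ (@Finset.prod_insert A K s b (baer hc h hh) _ _ hb).symm
      rw [← ih, mul_smul]
      exact map_bmul hc h (MulDistribMulAction.toMonoidHom K a) _ _
  rw [h1]
  exact @Fintype.prod_equiv A A K _ _ (baer hc h hh) (Equiv.mulLeft a) _ _ fun b => rfl

omit [Fintype A] in
theorem hom_bnorm {E : Type*} [Monoid E] (ρ : K →* E) (s : Finset A) (x : K)
    (h1 : ∀ a : A, ρ (a • x) = ρ x) (h2 : ∀ y, Commute (ρ x) (ρ y)) :
    ρ (bnorm hc h hh s x) = ρ x ^ s.card := by
  classical
  induction s using Finset.induction_on with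
  | empty => simp [bnorm_empty]
  | insert a s ha ih =>
    rw [bnorm_insert hc hh ha, Finset.card_insert_of_notMem ha, bmul, map_mul, map_mul, ih, h1,
      pow_succ', Subgroup.coe_pow, map_pow]
    have : ρ (ccom hc (bnorm hc h hh s x) (a • x)) = 1 := by
      change ρ (_ * _ * _⁻¹ * _⁻¹) = 1
      rw [map_mul, map_mul, map_mul, h1, ← (h2 _).eq, mul_assoc (ρ x), ← map_mul, mul_inv_cancel,
        map_one, mul_one, ← h1 a, ← map_mul, mul_inv_cancel, map_one]
    rw [this, one_pow, mul_one]

end baer

/-- The involutory automorphism: it fixes the fixed points of `A` and inverts modulo them. -/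
theorem exists_baer_involution {K A : Type*} [Group K] [Finite K] [Group A] [Finite A]
    [MulDistribMulAction A K] (hodd : Odd (Nat.card K))
    (hcop : (Nat.card K).Coprime (Nat.card A))
    (hcom : ∀ (a : A) (x y : K), a • ⁅x, y⁆ = ⁅x, y⁆)
    (hfix : ∀ x : K, (∀ a : A, a • x = x) → x ∈ Subgroup.center K) :
    ∃ σ : K →* K, (∀ x, σ (σ x) = x) ∧ (∀ x, (∀ a : A, a • x = x) → σ x = x) ∧
      (∀ (a : A) x, a • (σ x * x) = σ x * x) ∧ (∀ (a : A) x, σ (a • x) = a • σ x) ∧
      (∀ α : K →* K, (∀ (a : A) x, α (a • x) = a • α x) → ∀ x, α (σ x) = σ (α x)) ∧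
      ∀ (E : Type) [Monoid E] (ρ : K →* E) (x : K), (∀ a : A, ρ (a • x) = ρ x) →
        (∀ y, Commute (ρ x) (ρ y)) → ρ (σ x) = ρ x := by
  haveI : Fintype A := Fintype.ofFinite _
  have hc : ∀ x y : K, ⁅x, y⁆ ∈ Subgroup.center K := fun x y => hfix _ fun a => hcom a x y
  obtain ⟨m, hm⟩ := hodd
  have hh : ∀ x : K, x ^ (2 * (m + 1)) = x := fun x => by
    rw [show 2 * (m + 1) = Nat.card K + 1 by omega, pow_succ, pow_card_eq_one', one_mul]
  obtain ⟨t, ht⟩ : ∃ t : ℕ, ∀ x : K, x ^ (Nat.card A * t) = x := by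
    obtain ⟨t, -, ht⟩ := Nat.exists_mul_mod_eq_of_coprime 1 hcop.symm Nat.card_pos.ne'
    refine ⟨t, fun x => ?_⟩
    rw [← pow_mod_natCard, ht, pow_mod_natCard, pow_one]
  let N : K → Subgroup.center K := fun x =>
    ⟨bnorm hc (m + 1) hh (Finset.univ : Finset A) x, hfix _ fun a => smul_bnorm hc hh a x⟩
  have hNc : ∀ x : K, (∀ a : A, a • x = x) → (N x : K) = x ^ Nat.card A := fun x hx => by
    have := hom_bnorm hc hh (MonoidHom.id K) (Finset.univ : Finset A) x hx
      (fun y => (Subgroup.mem_center_iff.1 (hfix x hx) y).symm)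
    simpa using this
  have hNb : ∀ x y : K, N (bmul hc (m + 1) x y) = N x * N y := fun x y =>
    Subtype.ext ((bnorm_bmul hc hh _ x y).trans (bmul_center_right hc _ _ (N y)))
  have hNm : ∀ x y : K, N (x * y) = N x * N y * (ccom hc x y ^ (m + 1)) ^ Nat.card A := by
    intro x y
    have h1 : x * y = bmul hc (m + 1) (bmul hc (m + 1) x y)
        (ccom hc x y ^ (m + 1) : Subgroup.center K) := by
      rw [bmul_center_right, bmul, mul_assoc, ← Subgroup.coe_mul, ← mul_pow, ccom_inv hc x y,
        inv_mul_cancel, one_pow, OneMemClass.coe_one, mul_one]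
    rw [h1, hNb, hNb]
    congr 1
    apply Subtype.ext
    rw [hNc]
    · rfl
    · intro a
      rw [Subgroup.coe_pow, smul_pow']
      exact congrArg (· ^ (m + 1)) (hcom a x y)
  let σ : K →* K := MonoidHom.mk' (fun x => (N x ^ (2 * t) : Subgroup.center K) * x⁻¹) (by
    intro x y
    have h1 : ((ccom hc x y ^ (m + 1)) ^ Nat.card A) ^ (2 * t) = ccom hc x y := by
      rw [← pow_mul, ← pow_mul, show (m + 1) * (Nat.card A * (2 * t)) =
        2 * (m + 1) * (Nat.card A * t) by ring, pow_mul]
      exact Subtype.ext (by rw [Subgroup.coe_pow, Subgroup.coe_pow, hh, ht])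
    have h2 : x⁻¹ * y⁻¹ = ccom hc x y * (x * y)⁻¹ := by
      rw [mul_eq_ccom hc x⁻¹ y⁻¹, ccom_inv_left, ccom_inv_right, inv_inv, center_mul_comm,
        mul_inv_rev]
    rw [hNm, mul_pow, mul_pow, h1, Subgroup.coe_mul, Subgroup.coe_mul, mul_assoc, ← h2,
      mul_assoc (N x ^ (2 * t) : Subgroup.center K).1 x⁻¹, ← mul_assoc x⁻¹,
      ← center_mul_comm _ x⁻¹]
    simp only [mul_assoc])
  have hσ : ∀ x, σ x = (N x ^ (2 * t) : Subgroup.center K) * x⁻¹ := fun x => rfl
  have hσfix : ∀ x, (∀ a : A, a • x = x) → σ x = x := fun x hx => by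
    rw [hσ, Subgroup.coe_pow, hNc x hx, ← pow_mul, show Nat.card A * (2 * t) =
      Nat.card A * t * 2 by ring, pow_mul, ht, sq, mul_inv_cancel_right]
  have hNfix : ∀ (a : A) x, a • ((N x ^ (2 * t) : Subgroup.center K) : K) =
      (N x ^ (2 * t) : Subgroup.center K) := fun a x => by
    rw [Subgroup.coe_pow, smul_pow']
    exact congrArg (· ^ (2 * t)) (smul_bnorm hc hh a x)
  refine ⟨σ, fun x => ?_, hσfix, fun a x => ?_, fun a x => ?_, fun α hα x => ?_,
    fun E _ ρ x h1 h2 => ?_⟩
  · rw [hσ x, map_mul, hσfix _ (fun a => hNfix a x), map_inv, hσ x, mul_inv_rev, inv_inv,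
      ← Subgroup.coe_inv, ← center_mul_comm, ← mul_assoc, ← Subgroup.coe_mul, mul_inv_cancel,
      OneMemClass.coe_one, one_mul]
  · rw [hσ, inv_mul_cancel_right, hNfix]
  · rw [hσ, hσ, smul_mul', hNfix, smul_inv']
    congr 3
    exact Subtype.ext (bnorm_smul hc hh a x)
  · rw [hσ, hσ, map_mul, map_inv, Subgroup.coe_pow, Subgroup.coe_pow, map_pow]
    congr 2
    exact map_bnorm hc hh α _ x _ fun a => hα a x
  · have h3 : ρ (N x) = ρ x ^ Nat.card A := by
      have := hom_bnorm hc hh ρ (Finset.univ : Finset A) x h1 h2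
      simpa using this
    rw [hσ, map_mul, Subgroup.coe_pow, map_pow, h3, ← pow_mul, ← map_pow, ← map_mul,
      show Nat.card A * (2 * t) = Nat.card A * t * 2 by ring, pow_mul, ht, sq,
      mul_inv_cancel_right]

end H88
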